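import Mathlib
import Cfsg.Prelude.Def_FusionComponents
import Cfsg.Agent.Lib.Helper80.FT.A0
import Cfsg.Agent.Lib.Helper80.FT.B1
import Cfsg.Agent.Lib.Helper80.FT.C2b
import Cfsg.Agent.Lib.Helper80.FT.C4
import Cfsg.Agent.Lib.Helper80.FT.W9

set_option autoImplicit false
open Cfsg Cfsg.FusionSystem Cfsg.Agent.Lib.Helper80.FT

namespace Cfsg.Agent.Lib.Helper85.CompConj

universe u
variable {Ω : Type u} [Group Ω]

/-- [K] composition: twisting the image under phi0 by alpha gives the image under gamma = alpha o phi0. -/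
theorem comp_case {T U : Subgroup Ω} (C : FusionSystem T) (α : ↥U ≃* ↥U) (φ₀ γ : T →* Ω)
    (h0 : Function.Injective φ₀) (hγ : Function.Injective γ) (hU : ∀ x, φ₀ x ∈ U)
    (hc : ∀ x, γ x = α ⟨φ₀ x, hU x⟩) :
    Same (twist α (push φ₀ h0 (pull T.subtype T.subtype_injective C)))
      (push γ hγ (pull T.subtype T.subtype_injective C)) := by
  set C0 := pull T.subtype T.subtype_injective C with hC0
  let φ' : T →* U := φ₀.codRestrict U hU
  have hφ' : Function.Injective φ' := by
    intro a b hab
    exact h0 (congrArg Subtype.val hab)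
  have e1 : U.subtype.comp φ' = φ₀ := by ext x; rfl
  have i1 : Function.Injective (U.subtype.comp φ') := by rw [e1]; exact h0
  have s1 : Same (push φ₀ h0 C0) (push U.subtype U.subtype_injective (push φ' hφ' C0)) :=
    ((push_comp φ' hφ' U.subtype U.subtype_injective i1 C0).trans (push_congr e1 i1 h0 C0)).symm
  have s2 : Same (pull U.subtype U.subtype_injective (push φ₀ h0 C0)) (push φ' hφ' C0) :=
    (pull_same U.subtype U.subtype_injective s1).trans (pull_push U.subtype U.subtype_injective _)
  have e2 : (U.subtype.comp α.toMonoidHom).comp φ' = γ := by ext x; exact (hc x).symm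
  have i2 : Function.Injective ((U.subtype.comp α.toMonoidHom).comp φ') := by rw [e2]; exact hγ
  have s3 := push_same (U.subtype.comp α.toMonoidHom) (kap_inj α) s2
  have s4 := push_comp φ' hφ' (U.subtype.comp α.toMonoidHom) (kap_inj α) i2 C0
  exact s3.trans (s4.trans (push_congr e2 i2 hγ C0))

end Cfsg.Agent.Lib.Helper85.CompConj
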