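import Mathlib
import Cfsg.Prelude.Def_FusionComponents
import Cfsg.Agent.Lib.Helper80.FT.A0

set_option autoImplicit false
open Cfsg Cfsg.FusionSystem Cfsg.Agent.Lib.Helper80.FT

namespace Cfsg.Agent.Lib.Helper85.CompConj

universe u
variable {Ω : Type u} [Group Ω]

/-- [M] an element of Aut_F(U) is a morphism D -> D when D (over U) is invariant in F. Pure unfolding of clause 3 of IsInvariantIn. -/
theorem morph_of_invariant {U S : Subgroup Ω} {D : FusionSystem U} {F : FusionSystem S}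
    (h : D.IsInvariantIn F) (α : MulAut U) (hα : α ∈ F.autGroup U) :
    D.IsMorphism D (U.subtype.comp (α : ↥U ≃* ↥U).toMonoidHom) := by
  refine ⟨fun s => (α s).2, ?_⟩
  intro P φ hφ
  have hPU : P ≤ U := (D.le_of_mem hφ).1
  obtain ⟨χ, hχ, hχ'⟩ := h.2.2.1 P hPU φ hφ α hα
  refine ⟨χ, hχ, hPU, (D.le_of_mem hφ).2, ?_, ?_⟩
  · intro x
    exact ⟨⟨x.1, hPU x.2⟩, x.2, rfl⟩
  · intro x
    exact hχ' x _ _

end Cfsg.Agent.Lib.Helper85.CompConj
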