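import Mathlib
import Cfsg.Prelude.Def_FusionComponents
import Cfsg.Agent.Lib.Helper80.FT.B1
import Cfsg.Agent.Lib.Helper80.FT.B2
import Cfsg.Agent.Lib.Helper80.FT.B3
import Cfsg.Agent.Lib.Helper80.FT.C1

set_option autoImplicit false
open Cfsg Cfsg.FusionSystem Cfsg.Agent.Lib.Helper80.FT

namespace Cfsg.Agent.Lib.Helper85.CompConj

universe u
variable {Ω : Type u} [Group Ω]

/-- [P1] the factor system modulo the trivial subgroup read through gamma is the push of the localised system. -/
theorem same_of_factor {T : Subgroup Ω} (C : FusionSystem T) (γ : T →* Ω) (hγ : Function.Injective γ)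
    (E : FusionSystem γ.range) (hE : C.IsFactorSystem ⊥ γ E) :
    Same E (push γ hγ (pull T.subtype T.subtype_injective C)) := by
  refine ⟨?_, ?_⟩
  · have h1 : T.comap T.subtype = ⊤ := by
      ext x
      simp
    rw [h1, MonoidHom.range_eq_map]
  · intro P'
    ext ψ
    rw [hE.2.2.2 P' ψ]
    constructor
    · rintro ⟨hle, φ, hφ, hP, hφT, hP', h⟩
      have hr : ∀ y, φ y ∈ T.subtype.range := by
        intro y
        rw [Subgroup.range_subtype]
        exact hφT y
      obtain ⟨φ0, hφ0⟩ := exists_pushHom_eq T.subtype T.subtype_injective (P := P'.comap γ) φ hr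
      refine ⟨P'.comap γ, φ0, ?_, ?_, ?_⟩
      · show pushHom T.subtype T.subtype_injective φ0 ∈ C.Hom ((P'.comap γ).map T.subtype)
        rw [hφ0]
        exact hφ
      · rw [Subgroup.map_comap_eq, inf_eq_right.2 hle]
      · intro x hx
        have hm : T.subtype (x : T) ∈ (P'.comap γ).map T.subtype := Subgroup.mem_map_of_mem _ x.2
        have h2 := h ⟨T.subtype (x : T), hm⟩
        have h3 := pushHom_apply T.subtype T.subtype_injective φ0 x hm
        rw [hφ0] at h3
        have h4 : (⟨φ ⟨T.subtype (x : T), hm⟩, hφT _⟩ : T) = φ0 x := Subtype.ext h3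
        rw [h4] at h2
        exact h2
    · rintro ⟨P, φ0, hφ0, hP, hψ⟩
      have hPP : P = P'.comap γ := by
        rw [← hP, Subgroup.comap_map_eq_self_of_injective hγ]
      subst hPP
      have hφ0' : pushHom T.subtype T.subtype_injective φ0 ∈ C.Hom (preimageAlong γ P') := hφ0
      refine ⟨?_, pushHom T.subtype T.subtype_injective φ0, hφ0', (C.le_of_mem hφ0').1,
        (C.le_of_mem hφ0').2, ?_, ?_⟩
      · rw [← hP]
        exact Subgroup.map_le_range _ _
      · rintro ⟨y, t, ht, rfl⟩
        exact ht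
      · rintro ⟨y, t, ht, rfl⟩
        have hm : T.subtype t ∈ (P'.comap γ).map T.subtype := Subgroup.mem_map_of_mem _ ht
        have h3 := pushHom_apply T.subtype T.subtype_injective φ0 ⟨t, ht⟩ hm
        have h2 := hψ ⟨t, ht⟩ ht
        have h4 : (⟨pushHom T.subtype T.subtype_injective φ0 ⟨T.subtype t, hm⟩,
            (C.le_of_mem hφ0').2 _⟩ : T) = φ0 ⟨t, ht⟩ := Subtype.ext h3
        show ψ ⟨γ t, _⟩ = γ ⟨pushHom T.subtype T.subtype_injective φ0 ⟨T.subtype t, hm⟩, _⟩
        rw [h4]
        exact h2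

end Cfsg.Agent.Lib.Helper85.CompConj
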