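import Mathlib
import Cfsg.Prelude.Def_FusionComponents
import Cfsg.Agent.Lib.Helper80.FT.A0
import Cfsg.Agent.Lib.Helper84.FusionBasic

set_option autoImplicit false
open Cfsg Cfsg.FusionSystem Cfsg.Agent.Lib.Helper80.FT

namespace Cfsg.Agent.Lib.Helper85.CompConj

universe u
variable {Ω : Type u} [Group Ω]

open Cfsg.Agent.Lib.Helper84 in
/-- [SI] an element of Aut_F(S) is a morphism F -> F. -/
theorem self_morph {S : Subgroup Ω} (F : FusionSystem S) (α : MulAut S) (hα : α ∈ F.autGroup S) :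
    F.IsMorphism F (S.subtype.comp (α : ↥S ≃* ↥S).toMonoidHom) := by
  have hκ : S.subtype.comp (α : ↥S ≃* ↥S).toMonoidHom ∈ F.Hom S :=
    (mem_autGroup_iff F le_rfl α).1 hα
  refine ⟨fun s => (α s).2, ?_⟩
  intro P φ hφ
  have hPS : P ≤ S := (F.le_of_mem hφ).1
  have hφS : ∀ x : P, φ x ∈ S := (F.le_of_mem hφ).2
  have ha := restrict_mem F hκ hPS
  have hrange : ((S.subtype.comp (α : ↥S ≃* ↥S).toMonoidHom).comp (Subgroup.inclusion hPS)).range =
      imageAlong (S.subtype.comp (α : ↥S ≃* ↥S).toMonoidHom) P := by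
    ext y
    constructor
    · rintro ⟨x, rfl⟩
      exact ⟨Subgroup.inclusion hPS x, x.2, rfl⟩
    · rintro ⟨s, hs, rfl⟩
      exact ⟨⟨s.1, hs⟩, rfl⟩
  have he := mor_equivOfRange F ha hrange
  have hes := Mor.symm he
  have hφm : Mor F (φ.codRestrict S hφS) := mor_of_mem F hφ hφS
  have hcomp := Mor.comp_hom hκ (Mor.comp hφm hes)
  refine ⟨_, hcomp, hPS, hφS, ?_, ?_⟩
  · intro x
    exact ⟨⟨x.1, hPS x.2⟩, x.2, rfl⟩
  · intro x
    have hx : (equivOfRange _ (F.injective_of_mem ha) hrange).symm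
        ⟨(S.subtype.comp (α : ↥S ≃* ↥S).toMonoidHom) ⟨x, hPS x.2⟩, ⟨⟨x.1, hPS x.2⟩, x.2, rfl⟩⟩ = x := by
      rw [MulEquiv.symm_apply_eq]
      apply Subtype.ext
      rfl
    show (S.subtype.comp (α : ↥S ≃* ↥S).toMonoidHom) ((φ.codRestrict S hφS)
      ((equivOfRange _ (F.injective_of_mem ha) hrange).symm _)) = _
    rw [hx]
    rfl

end Cfsg.Agent.Lib.Helper85.CompConj
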