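import Mathlib
import Cfsg.Prelude.Def_FusionComponents
import Cfsg.Agent.Lib.Helper80.FT.A1
import Cfsg.Agent.Lib.Helper80.FT.C4
import Cfsg.Agent.Lib.Helper85.CompConj.SI

set_option autoImplicit false
open Cfsg Cfsg.FusionSystem Cfsg.Agent.Lib.Helper80.FT

namespace Cfsg.Agent.Lib.Helper85.CompConj

universe u
variable {Ω : Type u} [Group Ω]

/-- [RF] the image of F under a map of F with source S is F. -/
theorem refl_case {S : Subgroup Ω} [Finite S] (F : FusionSystem S) (θ : S →* Ω) (hθ : Function.Injective θ)
    (hθF : θ ∈ F.Hom S) :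
    Same (push θ hθ (pull S.subtype S.subtype_injective F)) F := by
  have hS : ∀ x : S, θ x ∈ S := (F.le_of_mem hθF).2
  let θ' : S →* S := θ.codRestrict S hS
  have hinj : Function.Injective θ' := fun a b h => hθ (congrArg Subtype.val h)
  have hbij : Function.Bijective θ' := Finite.injective_iff_bijective.1 hinj
  let α : S ≃* S := MulEquiv.ofBijective θ' hbij
  have hα : S.subtype.comp α.toMonoidHom = θ := by
    ext x
    rfl
  have hmem : (α : MulAut S) ∈ F.autGroup S := by
    apply Subgroup.subset_closure
    show S.subtype.comp α.toMonoidHom ∈ F.Hom S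
    rw [hα]
    exact hθF
  have hmem' : ((α : MulAut S)⁻¹ : MulAut S) ∈ F.autGroup S := inv_mem hmem
  have h1 := self_morph F α hmem
  have h2 := self_morph F ((α : MulAut S)⁻¹ : MulAut S) hmem'
  exact (push_congr hα.symm hθ (kap_inj α) _).trans (twist_F F α h1 h2)

end Cfsg.Agent.Lib.Helper85.CompConj
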