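import Mathlib
import Cfsg.Prelude.Def_FusionComponents
import Cfsg.Agent.Lib.Helper80.FT.A1
import Cfsg.Agent.Lib.Helper80.FT.A3
import Cfsg.Agent.Lib.Helper80.FT.W8b
import Cfsg.Agent.Lib.Helper85.CompConj.M
import Cfsg.Agent.Lib.Helper85.CompConj.RF
import Cfsg.Agent.Lib.Helper85.CompConj.K
import Cfsg.Agent.Lib.Helper85.CompConj.P1

set_option autoImplicit false
open Cfsg Cfsg.FusionSystem Cfsg.Agent.Lib.Helper80.FT

namespace Cfsg.Agent.Lib.Helper85.CompConj

universe u
variable {Ω : Type u} [Group Ω]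

theorem twist_same_of_invariant {U S : Subgroup Ω} {D : FusionSystem U} {F : FusionSystem S}
    (h : D.IsInvariantIn F) (α : MulAut U) (hα : α ∈ F.autGroup U) :
    Same (twist (α : ↥U ≃* ↥U) D) D :=
  twist_F D α (morph_of_invariant h α hα) (morph_of_invariant h α⁻¹ ((F.autGroup U).inv_mem hα))

theorem comp_push {T S : Subgroup Ω} {C : FusionSystem T} {F : FusionSystem S} {p : ℕ}
    (h : C.IsSubnormalIn F p) : Finite S → C.Quasisimple p →
    ∀ (γ : T →* Ω) (hγ : Function.Injective γ), γ ∈ F.Hom T →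
      (push γ hγ (pull T.subtype T.subtype_injective C)).IsComponentIn F p := by
  induction h with
  | refl F p =>
    intro hfin hq γ hγ hγF
    haveI := hfin
    exact (refl_case F γ hγ hγF).symm.elim (fun T E => E.IsComponentIn F p) ⟨IsSubnormalIn.refl F p, hq⟩
  | step hCD hDF ih =>
    rename_i T U S C D F p
    intro hfin hq γ hγ hγF
    have hinv : D.IsInvariantIn F := hDF.1.2.2
    have hUS : U ≤ S := hinv.2.1.1
    haveI : Finite U := by
      haveI := hfin
      exact Finite.of_injective (Subgroup.inclusion hUS) (Subgroup.inclusion_injective hUS)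
    have hTU : T ≤ U := le_of_subnormal hCD
    obtain ⟨α, hα, φ₀, hφ₀, hc⟩ := hinv.2.2.2 T hTU γ hγF
    have h0 : Function.Injective φ₀ := D.injective_of_mem hφ₀
    have hU : ∀ x, φ₀ x ∈ U := (D.le_of_mem hφ₀).2
    have h1 := ih inferInstance hq φ₀ h0 hφ₀
    have h2 := twist_component D α (twist_same_of_invariant hinv α hα) _ p h1
    have h3 := comp_case C α φ₀ γ h0 hγ hU (fun x => hc x (hU x))
    have h4 := h3.elim (fun T E => E.IsComponentIn D p) h2
    exact ⟨IsSubnormalIn.step h4.1 hDF, h4.2⟩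

end Cfsg.Agent.Lib.Helper85.CompConj
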